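import Cfsg.Agent.Lib.Transfer.Tate
import Cfsg.Agent.Lib.CycSylow.Basic
import Cfsg.Agent.Lib.FrobThm.FixedPointFree
import Cfsg.Agent.Lib.Hall.FPFAction
import Cfsg.Agent.Lib.Core.Basic
import Mathlib

/-! Camina pairs `(G, N)`: every `g ∉ N` is conjugate to all of `gN`. -/

set_option autoImplicit false

namespace Cfsg.Agent.Lib.CaminaPair

open Subgroup Cfsg
open scoped commutatorElement IsMulCommutative Pointwise

variable {G : Type*} [Group G]

/-- The Camina condition. -/
def Cam (N : Subgroup G) : Prop := ∀ g : G, g ∉ N → ∀ n ∈ N, ∃ x : G, x * g * x⁻¹ = g * n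

theorem Cam.pow_eq_one {N : Subgroup G} (h : Cam N) {g n : G} (hg : g ∉ N) (hn : n ∈ N)
    (hc : Commute g n) {m : ℕ} (hm : g ^ m = 1) : n ^ m = 1 := by
  obtain ⟨x, hx⟩ := h g hg n hn
  have h1 : (x * g * x⁻¹) ^ m = 1 := by rw [conj_pow, hm]; simp
  rw [hx, hc.mul_pow, hm, one_mul] at h1
  exact h1

/-- Orbit-stabilizer for conjugation by a subgroup. -/
theorem card_conj_range (H : Subgroup G) (g : G) :
    Nat.card (Set.range (fun h : H => (h : G) * g * (h : G)⁻¹)) * Nat.card ↥(H ⊓ centralizer {g})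
      = Nat.card H := by
  letI : MulAction H G :=
    { smul := fun h x => (h : G) * x * (h : G)⁻¹
      one_smul := by intro x; show (1 : G) * x * (1 : G)⁻¹ = x; simp
      mul_smul := by
        intro a b x
        show ((a : G) * (b : G)) * x * ((a : G) * (b : G))⁻¹ = (a : G) * ((b : G) * x * (b : G)⁻¹) * (a : G)⁻¹
        group }
  have h1 := Nat.card_congr (MulAction.orbitProdStabilizerEquivGroup H g)
  rw [Nat.card_prod] at h1
  have h2 : Nat.card (MulAction.stabilizer H g) = Nat.card ↥(H ⊓ centralizer {g}) := by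
    refine Nat.card_congr ⟨fun x => ⟨x.1.1, x.1.2, ?_⟩, fun y => ⟨⟨y.1, y.2.1⟩, ?_⟩, ?_, ?_⟩
    · have hx : (x.1 : G) * g * (x.1 : G)⁻¹ = g := x.2
      show ((x.1 : H) : G) ∈ centralizer {g}
      rw [mem_centralizer_singleton_iff]
      exact mul_inv_eq_iff_eq_mul.mp hx
    · have hy := mem_centralizer_singleton_iff.mp y.2.2
      show (y.1 : G) * g * (y.1 : G)⁻¹ = g
      rw [hy]; group
    · intro x; rfl
    · intro y; rfl
  rw [h2] at h1
  exact h1

theorem Cam.card_centralizer [Finite G] {N : Subgroup G} [hN : N.Normal] (h : Cam N) {g : G} (hg : g ∉ N) :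
    Nat.card (centralizer {g}) = Nat.card (centralizer {(g : G ⧸ N)}) := by
  classical
  set C' := centralizer {(g : G ⧸ N)} with hC'
  set D := C'.comap (QuotientGroup.mk' N) with hD
  have hCD : centralizer {g} ≤ D := by
    intro x hx
    show (QuotientGroup.mk x : G ⧸ N) ∈ C'
    rw [hC', mem_centralizer_singleton_iff]
    have := mem_centralizer_singleton_iff.mp hx
    rw [← QuotientGroup.mk_mul, this, QuotientGroup.mk_mul]
  have hr : Set.range (fun h : D => (h : G) * g * (h : G)⁻¹) = Set.range (fun n : N => g * (n : G)) := by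
    ext y
    constructor
    · rintro ⟨x, rfl⟩
      have hx : (QuotientGroup.mk (x : G) : G ⧸ N) ∈ C' := x.2
      rw [hC', mem_centralizer_singleton_iff] at hx
      have hmem : g⁻¹ * ((x : G) * g * (x : G)⁻¹) ∈ N := by
        rw [← QuotientGroup.eq]
        rw [QuotientGroup.mk_mul, QuotientGroup.mk_mul, hx, QuotientGroup.mk_inv]
        group
      exact ⟨⟨_, hmem⟩, by simp⟩
    · rintro ⟨n, rfl⟩
      obtain ⟨x, hx⟩ := h g hg n n.2
      refine ⟨⟨x, ?_⟩, hx⟩
      show (QuotientGroup.mk x : G ⧸ N) ∈ C'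
      rw [hC', mem_centralizer_singleton_iff]
      have h1 : x * g = g * n * x := by rw [← hx]; group
      have h2 : (QuotientGroup.mk (n : G) : G ⧸ N) = 1 := (QuotientGroup.eq_one_iff _).2 n.2
      rw [← QuotientGroup.mk_mul, h1, QuotientGroup.mk_mul, QuotientGroup.mk_mul, h2]; simp
  have hinj : Function.Injective (fun n : N => g * (n : G)) := by
    intro a b hab
    exact Subtype.ext (mul_left_cancel hab)
  have h1 := card_conj_range D g
  rw [hr, Nat.card_range_of_injective hinj, inf_eq_right.mpr hCD] at h1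
  have hidx : D.index = C'.index := index_comap_of_surjective _ (QuotientGroup.mk'_surjective N)
  have h2 := D.card_mul_index
  have h3 := C'.card_mul_index
  have h4 := Subgroup.card_eq_card_quotient_mul_card_subgroup N
  have hipos : C'.index ≠ 0 := Subgroup.index_ne_zero_of_finite
  have hNpos : Nat.card N ≠ 0 := Nat.card_pos.ne'
  have h5 : Nat.card D = Nat.card N * Nat.card C' := by
    apply Nat.eq_of_mul_eq_mul_right (Nat.pos_of_ne_zero hipos)
    rw [← hidx] at *
    rw [h2, h4, ← h3]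
    ring
  rw [h5] at h1
  exact (Nat.eq_of_mul_eq_mul_left (Nat.pos_of_ne_zero hNpos) h1)

open Cfsg.Agent.Lib.Transfer in
theorem Cam.inf_le_frattini [Finite G] {N : Subgroup G} [hN : N.Normal] (h : Cam N) {q : ℕ}
    [hq : Fact q.Prime] (hdvd : q ∣ N.index) (P : Sylow q G) :
    N ⊓ (P : Subgroup G) ≤ (frattini (P : Subgroup G)).map (P : Subgroup G).subtype := by
  classical
  set π := QuotientGroup.mk' N with hπ
  have hsurj : Function.Surjective π := QuotientGroup.mk'_surjective N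
  set P' : Sylow q (G ⧸ N) := P.mapSurjective hsurj with hP'
  have hP'coe : (P' : Subgroup (G ⧸ N)) = (P : Subgroup G).map π := rfl
  have hcardP' : Nat.card P' = q ^ (Nat.card (G ⧸ N)).factorization q := P'.card_eq_multiplicity
  have hGN : Nat.card (G ⧸ N) ≠ 0 := Nat.card_pos.ne'
  have hfac : (Nat.card (G ⧸ N)).factorization q ≠ 0 := by
    have : q ∣ Nat.card (G ⧸ N) := by rwa [← Subgroup.index_eq_card]
    exact Nat.one_le_iff_ne_zero.mp ((hq.out.dvd_iff_one_le_factorization hGN).mp this)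
  haveI : Nontrivial P' := by
    rw [← Finite.one_lt_card_iff_nontrivial, hcardP']
    exact Nat.one_lt_pow hfac hq.out.one_lt
  haveI := P'.isPGroup'.center_nontrivial
  obtain ⟨zb, hz1⟩ := exists_ne (1 : center P')
  obtain ⟨z, hzP, hzb⟩ : ∃ z ∈ (P : Subgroup G), π z = ((zb : P') : G ⧸ N) := by
    have h' : ((zb : P') : G ⧸ N) ∈ (P : Subgroup G).map π := (zb : P').2
    exact h'
  have hzN : z ∉ N := by
    intro hz
    apply hz1
    apply Subtype.ext
    apply Subtype.ext
    show ((zb : P') : G ⧸ N) = 1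
    rw [← hzb]
    exact (QuotientGroup.eq_one_iff _).2 hz
  -- commutators land in `N`
  have hcomm : ∀ x ∈ (P : Subgroup G), z⁻¹ * (x * z * x⁻¹) ∈ N := by
    intro x hx
    have hx' : π x ∈ (P' : Subgroup (G ⧸ N)) := by rw [hP'coe]; exact ⟨x, hx, rfl⟩
    have hc := (mem_center_iff.mp zb.2) ⟨π x, hx'⟩
    have hc' : π x * π z = π z * π x := by
      rw [hzb]
      exact congrArg Subtype.val hc
    have h3 : π (z⁻¹ * (x * z * x⁻¹)) = 1 := by
      simp only [map_mul, map_inv, hc']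
      group
    exact (QuotientGroup.eq_one_iff _).1 h3
  set f : (P : Subgroup G) →* G ⧸ N := π.comp (P : Subgroup G).subtype with hf
  have hmemker : ∀ x : (P : Subgroup G), x ∈ f.ker ↔ (x : G) ∈ N := by
    intro x
    rw [MonoidHom.mem_ker]
    exact QuotientGroup.eq_one_iff _
  have hinj : Function.Injective (fun t : f.ker => z * ((t : (P : Subgroup G)) : G)) := by
    intro a b hab
    exact Subtype.ext (Subtype.ext (mul_left_cancel hab))
  set O := Set.range (fun x : (P : Subgroup G) => (x : G) * z * (x : G)⁻¹) with hO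
  set S := Set.range (fun t : f.ker => z * ((t : (P : Subgroup G)) : G)) with hS
  have hOS : O ⊆ S := by
    rintro _ ⟨x, rfl⟩
    have h1 := hcomm x x.2
    have h2 : z⁻¹ * ((x : G) * z * (x : G)⁻¹) ∈ (P : Subgroup G) :=
      mul_mem (inv_mem hzP) (mul_mem (mul_mem x.2 hzP) (inv_mem x.2))
    exact ⟨⟨⟨_, h2⟩, (hmemker _).2 h1⟩, by simp⟩
  have hcO := card_conj_range (P : Subgroup G) z
  have hcS : Nat.card S = Nat.card f.ker := Nat.card_range_of_injective hinj
  -- |C_P(z)| ≤ |P'|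
  have hle : Nat.card ↥((P : Subgroup G) ⊓ centralizer {z}) ≤ Nat.card P' := by
    have hpg : IsPGroup q ↥((P : Subgroup G) ⊓ centralizer {z}) := P.isPGroup'.to_le inf_le_left
    obtain ⟨k, hk⟩ := IsPGroup.iff_card.mp hpg
    have hd1 : Nat.card ↥((P : Subgroup G) ⊓ centralizer {z}) ∣ Nat.card (centralizer {z}) :=
      Subgroup.card_dvd_of_le inf_le_right
    rw [h.card_centralizer hzN] at hd1
    have hd2 := hd1.trans (Subgroup.card_subgroup_dvd_card (centralizer {(z : G ⧸ N)}))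
    rw [hk] at hd2
    have hk2 := (hq.out.pow_dvd_iff_le_factorization hGN).mp hd2
    rw [hk, hcardP']
    exact Nat.pow_le_pow_right hq.out.pos hk2
  -- |P| = |P'| |ker f|
  have hPcard : Nat.card (P : Subgroup G) = Nat.card P' * Nat.card f.ker := by
    have h1 := Subgroup.card_eq_card_quotient_mul_card_subgroup f.ker
    rw [h1, Nat.card_congr (QuotientGroup.quotientKerEquivRange f).toEquiv]
    congr 2
    rw [hP'coe, hf, MonoidHom.range_comp, Subgroup.range_subtype]
  have hker : Nat.card f.ker ≤ Nat.card O := by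
    have hP'pos : 0 < Nat.card P' := Nat.card_pos
    have hCpos : 0 < Nat.card ↥((P : Subgroup G) ⊓ centralizer {z}) := Nat.card_pos
    by_contra hlt
    rw [not_le] at hlt
    have : Nat.card O * Nat.card ↥((P : Subgroup G) ⊓ centralizer {z}) < Nat.card f.ker * Nat.card P' :=
      Nat.mul_lt_mul_of_lt_of_le hlt hle hP'pos
    rw [hcO, hPcard, mul_comm] at this
    exact lt_irrefl _ this
  have hSfin : S.Finite := Set.toFinite _
  have hOeq : O = S := Set.eq_of_subset_of_ncard_le hOS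
    (by rw [← Nat.card_coe_set_eq, ← Nat.card_coe_set_eq, hcS]; exact hker) hSfin
  intro y hy
  have hyS : z * y ∈ S := ⟨⟨⟨y, hy.2⟩, (hmemker _).2 hy.1⟩, rfl⟩
  rw [← hOeq] at hyS
  obtain ⟨x, hx⟩ := hyS
  have hxe : (x : G) * z * (x : G)⁻¹ = z * y := hx
  refine ⟨⟨y, hy.2⟩, ?_, rfl⟩
  have hy2 : (⟨y, hy.2⟩ : (P : Subgroup G)) = ⁅(⟨z, hzP⟩ : (P : Subgroup G))⁻¹, x⁆ := by
    apply Subtype.ext
    show y = z⁻¹ * (x : G) * z⁻¹⁻¹ * (x : G)⁻¹
    have : y = z⁻¹ * ((x : G) * z * (x : G)⁻¹) := by rw [hxe]; group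
    rw [this]; group
  rw [hy2]
  refine commutator_le_frattini P.isPGroup' ?_
  exact Subgroup.commutator_mem_commutator (mem_top _) (mem_top _)

open Cfsg.Agent.Lib.Transfer in
theorem Cam.hasNormalPComplement [Finite G] {N : Subgroup G} [hN : N.Normal] (h : Cam N) {q : ℕ}
    [hq : Fact q.Prime] (hdvd : q ∣ N.index) : HasNormalPComplement q N := by
  obtain ⟨P⟩ : Nonempty (Sylow q G) := inferInstance
  exact tate P N (h.inf_le_frattini hdvd P)

/-- Abelian `t`-subgroups of the quotient by a nontrivial normal `p`-subgroup are cyclic. -/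
theorem cyclic_of_ker_pgroup {G₁ Q : Type*} [Group G₁] [Finite G₁] [Group Q] (φ : G₁ →* Q)
    (hφ : Function.Surjective φ) {p t : ℕ} [hp : Fact p.Prime] [ht : Fact t.Prime] (hpt : p ≠ t)
    (hker : IsPGroup p φ.ker) (hne : φ.ker ≠ ⊥) (hcam : Cam φ.ker) (B : Subgroup Q)
    (hB : IsPGroup t B) (hab : IsMulCommutative B) : IsCyclic B := by
  classical
  set L := B.comap φ with hL
  have hψs : Function.Surjective (φ.subgroupComap B) := φ.subgroupComap_surjective_of_surjective B hφ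
  obtain ⟨P⟩ : Nonempty (Sylow t L) := inferInstance
  have hPB : (P.map (φ.subgroupComap B) : Subgroup B) = ⊤ := by
    have h1 : ((P.mapSurjective hψs : Sylow t B) : Subgroup B) = P.map (φ.subgroupComap B) := rfl
    rw [← h1]
    have h2 : IsPGroup t (⊤ : Subgroup B) := fun g => by
      obtain ⟨k, hk⟩ := hB g.1
      exact ⟨k, Subtype.ext hk⟩
    exact ((P.mapSurjective hψs).is_maximal' h2 le_top).symm
  set S : Subgroup G₁ := (P : Subgroup L).map L.subtype with hS
  have hSt : IsPGroup t S := P.isPGroup'.map _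
  have hdisj : Disjoint S φ.ker := IsPGroup.disjoint_of_ne t p hpt.symm S φ.ker hSt hker
  have hSB : ∀ a ∈ S, φ a ∈ B := by
    rintro _ ⟨a, -, rfl⟩
    exact a.2
  have hBS : ∀ b ∈ B, ∃ a ∈ S, φ a = b := by
    intro b hb
    have : (⟨b, hb⟩ : B) ∈ (P.map (φ.subgroupComap B) : Subgroup B) := by rw [hPB]; trivial
    obtain ⟨y, hy, hye⟩ := this
    refine ⟨y, ⟨y, hy, rfl⟩, ?_⟩
    exact congrArg Subtype.val hye
  have hSinj : ∀ a ∈ S, φ a = 1 → a = 1 := by
    intro a ha hφa
    exact Subgroup.disjoint_def.mp hdisj ha hφa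
  haveI hSab : IsMulCommutative S := by
    refine ⟨⟨fun a b => ?_⟩⟩
    apply Subtype.ext
    have hc : φ (a : G₁) * φ (b : G₁) = φ (b : G₁) * φ (a : G₁) := by
      have := hab.is_comm.comm ⟨φ a, hSB _ a.2⟩ ⟨φ b, hSB _ b.2⟩
      exact congrArg Subtype.val this
    have h1 : φ ((a : G₁) * b * ((b : G₁) * a)⁻¹) = 1 := by
      rw [map_mul, map_mul, map_inv, map_mul, hc]; simp
    have h2 := hSinj _ (mul_mem (mul_mem a.2 b.2) (inv_mem (mul_mem b.2 a.2))) h1
    exact mul_inv_eq_one.mp h2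
  -- the abelian normal subgroup
  set V : Subgroup G₁ := φ.ker ⊓ centralizer (φ.ker : Set G₁) with hV
  haveI hVab : IsMulCommutative V := by
    refine ⟨⟨fun a b => ?_⟩⟩
    apply Subtype.ext
    exact ((mem_centralizer_iff.mp a.2.2) b b.2.1).symm
  have hVne : V ≠ ⊥ := by
    haveI : Nontrivial φ.ker := (Subgroup.nontrivial_iff_ne_bot _).2 hne
    haveI := hker.center_nontrivial
    obtain ⟨z, hz⟩ := exists_ne (1 : center φ.ker)
    intro hbot
    apply hz
    have hzV : ((z : φ.ker) : G₁) ∈ V := by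
      refine ⟨(z : φ.ker).2, ?_⟩
      show ((z : φ.ker) : G₁) ∈ centralizer (φ.ker : Set G₁)
      rw [mem_centralizer_iff]
      intro y hy
      exact congrArg Subtype.val ((mem_center_iff.mp z.2) ⟨y, hy⟩)
    rw [hbot, mem_bot] at hzV
    apply Subtype.ext
    apply Subtype.ext
    exact hzV
  haveI hVn : V.Normal := by
    have : (centralizer (φ.ker : Set G₁)).Normal := inferInstance
    exact Subgroup.normal_inf_normal _ _
  have hfpf : ∀ a ∈ S, a ≠ 1 → V ⊓ centralizer {a} = ⊥ := by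
    intro a ha ha1
    rw [eq_bot_iff]
    rintro v ⟨hvV, hvc⟩
    have haN : a ∉ φ.ker := fun h => ha1 (hSinj a ha h)
    obtain ⟨k, hk⟩ := hSt ⟨a, ha⟩
    have hk' : a ^ t ^ k = 1 := congrArg Subtype.val hk
    have hvc' := mem_centralizer_singleton_iff.mp hvc
    have h1 := hcam.pow_eq_one haN hvV.1 (Commute.symm hvc') hk'
    obtain ⟨l, hl⟩ := hker ⟨v, hvV.1⟩
    have hl' : v ^ p ^ l = 1 := congrArg Subtype.val hl
    have hcop : Nat.Coprime (p ^ l) (t ^ k) :=
      Nat.Coprime.pow _ _ ((Nat.coprime_primes hp.out ht.out).2 hpt)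
    have h2 : orderOf v = 1 :=
      Nat.eq_one_of_dvd_coprimes hcop (orderOf_dvd_of_pow_eq_one hl') (orderOf_dvd_of_pow_eq_one h1)
    exact mem_bot.2 (orderOf_eq_one_iff.mp h2)
  have hcyc : IsCyclic S := Cfsg.Agent.Lib.Hall.isCyclic_of_fpf S V hVne
    (by rw [Subgroup.normalizer_eq_top_iff.mpr hVn]; exact le_top) hfpf (Or.inl hSab)
  let f : S →* B := (φ.comp S.subtype).codRestrict B (fun a => hSB _ a.2)
  refine isCyclic_of_surjective f ?_
  intro b
  obtain ⟨a, ha, hab⟩ := hBS b b.2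
  exact ⟨⟨a, ha⟩, Subtype.ext hab⟩

/-- A subgroup of order `t^(a+1)` in `C(c)` through `⟨c⟩`: it is abelian. -/
theorem exists_abelian_sup {Q : Type*} [Group Q] [Finite Q] {t : ℕ} [ht : Fact t.Prime] (c : Q) {a : ℕ}
    (ho : orderOf c = t ^ a) (hd : t ^ (a + 1) ∣ Nat.card (centralizer {c})) :
    ∃ B : Subgroup Q, Nat.card B = t ^ (a + 1) ∧ IsMulCommutative B := by
  classical
  set C := centralizer {c} with hC
  have hcC : c ∈ C := by rw [hC, mem_centralizer_singleton_iff]
  set c' : C := ⟨c, hcC⟩ with hc'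
  have hcen : ∀ y : C, y * c' = c' * y := by
    intro y
    apply Subtype.ext
    exact mem_centralizer_singleton_iff.mp y.2
  have hH : Nat.card (zpowers c') = t ^ a := by
    rw [Nat.card_zpowers, ← ho]
    exact (Subgroup.orderOf_mk c hcC)
  obtain ⟨B₀, hB₀, hle⟩ := Sylow.exists_subgroup_card_pow_succ hd hH
  refine ⟨B₀.map C.subtype, ?_, ?_⟩
  · rw [Subgroup.card_map_of_injective C.subtype_injective]; exact hB₀
  · have hab : ∀ x y : B₀, x * y = y * x := by
      set Z : Subgroup B₀ := (zpowers c').subgroupOf B₀ with hZ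
      have hZc : Z ≤ center B₀ := by
        intro z hz
        have hz' : (z : C) ∈ zpowers c' := hz
        obtain ⟨k, hk⟩ := mem_zpowers_iff.mp hz'
        rw [mem_center_iff]
        intro y
        apply Subtype.ext
        show (y : C) * (z : C) = (z : C) * (y : C)
        rw [← hk]
        exact (Commute.zpow_right (hcen y : Commute (y : C) c') k)
      haveI hZn : Z.Normal := by
        constructor
        intro n hn g
        have := mem_center_iff.mp (hZc hn) g
        rw [this]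
        simpa using hn
      have hZcard : Nat.card Z = t ^ a := by
        rw [hZ, Nat.card_congr (Subgroup.subgroupOfEquivOfLe hle).toEquiv, hH]
      have hq : Nat.card (B₀ ⧸ Z) = t := by
        have h1 := Subgroup.card_eq_card_quotient_mul_card_subgroup Z
        rw [hZcard, hB₀, pow_succ, mul_comm] at h1
        exact (Nat.eq_of_mul_eq_mul_right (pow_pos ht.out.pos a) h1).symm
      haveI : IsCyclic (B₀ ⧸ Z) := by
        haveI : Fact (Nat.card (B₀ ⧸ Z)).Prime := ⟨by rw [hq]; exact ht.out⟩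
        exact isCyclic_of_prime_card rfl
      have hkerle : (QuotientGroup.mk' Z).ker ≤ center B₀ := by
        rw [QuotientGroup.ker_mk']; exact hZc
      have := MonoidHom.isMulCommutative_of_isCyclic_of_ker_le_center (QuotientGroup.mk' Z) hkerle
      exact this.is_comm.comm
    refine ⟨⟨?_⟩⟩
    rintro ⟨_, x, hx, rfl⟩ ⟨_, y, hy, rfl⟩
    apply Subtype.ext
    exact congrArg (fun w : B₀ => ((w : C) : Q)) (hab ⟨x, hx⟩ ⟨y, hy⟩)

theorem lift_pelt [Finite G] {N : Subgroup G} [hN : N.Normal] {t a : ℕ} [ht : Fact t.Prime] (y : G)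
    (hy : orderOf (y : G ⧸ N) = t ^ a) :
    ∃ c : G, (∃ n : ℕ, c ^ t ^ n = 1) ∧ orderOf (c : G ⧸ N) = t ^ a := by
  have ho : orderOf y ≠ 0 := (orderOf_pos y).ne'
  refine ⟨y ^ ordCompl[t] (orderOf y), ⟨(orderOf y).factorization t, ?_⟩, ?_⟩
  · rw [← pow_mul, mul_comm, Nat.ordProj_mul_ordCompl_eq_self, pow_orderOf_eq_one]
  · rw [QuotientGroup.mk_pow, Nat.Coprime.orderOf_pow, hy]
    rw [hy]
    exact Nat.Coprime.pow_left a ((Nat.Prime.coprime_iff_not_dvd ht.out).2 (Nat.not_dvd_ordCompl ht.out ho))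

/-- The key contradiction: `t` divides both `|N|` and `|G : N|`, while `N` has a nontrivial `p`-quotient, `p ≠ t`. -/
theorem Cam.false_of_residual [Finite G] {N K : Subgroup G} [hN : N.Normal] [hKn : K.Normal] (h : Cam N)
    (hKN : K ≤ N) (hne : K ≠ N) {p t : ℕ} [hp : Fact p.Prime] [ht : Fact t.Prime] (hpt : p ≠ t)
    (hK : ∀ n ∈ N, ∃ a : ℕ, n ^ (p ^ a) ∈ K) (ht1 : t ∣ N.index) (ht2 : t ∣ Nat.card N) : False := by
  classical
  let φ : G ⧸ K →* G ⧸ N := QuotientGroup.map K N (MonoidHom.id G) hKN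
  have hφs : Function.Surjective φ := by
    intro y
    obtain ⟨x, rfl⟩ := QuotientGroup.mk_surjective y
    exact ⟨(x : G ⧸ K), rfl⟩
  have hmem : ∀ x : G, (x : G ⧸ K) ∈ φ.ker ↔ x ∈ N := by
    intro x
    rw [MonoidHom.mem_ker]
    exact QuotientGroup.eq_one_iff x
  have hkerp : IsPGroup p φ.ker := by
    rintro ⟨y, hy⟩
    obtain ⟨x, rfl⟩ := QuotientGroup.mk_surjective y
    obtain ⟨a, ha⟩ := hK x ((hmem x).1 hy)
    refine ⟨a, Subtype.ext ?_⟩
    show (x : G ⧸ K) ^ p ^ a = 1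
    rw [← QuotientGroup.mk_pow]
    exact (QuotientGroup.eq_one_iff _).2 ha
  have hkerne : φ.ker ≠ ⊥ := by
    obtain ⟨x, hxN, hxK⟩ := SetLike.exists_of_lt (lt_of_le_of_ne hKN hne)
    intro hb
    have := (hmem x).2 hxN
    rw [hb, mem_bot] at this
    exact hxK ((QuotientGroup.eq_one_iff _).1 this)
  have hkercam : Cam φ.ker := by
    intro g hg n hn
    obtain ⟨g, rfl⟩ := QuotientGroup.mk_surjective g
    obtain ⟨n, rfl⟩ := QuotientGroup.mk_surjective n
    obtain ⟨x, hx⟩ := h g (fun h' => hg ((hmem g).2 h')) n ((hmem n).1 hn)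
    refine ⟨(x : G ⧸ K), ?_⟩
    have := congrArg (fun w : G => (w : G ⧸ K)) hx
    simpa using this
  have hcyc : ∀ B : Subgroup (G ⧸ N), IsPGroup t B → IsMulCommutative B → IsCyclic B :=
    fun B h1 h2 => cyclic_of_ker_pgroup φ hφs hpt hkerp hkerne hkercam B h1 h2
  set A : Set ℕ := {a | ∃ c : G, (∃ n : ℕ, c ^ t ^ n = 1) ∧ orderOf (c : G ⧸ N) = t ^ a} with hA
  have h1A : 1 ∈ A := by
    obtain ⟨x, hx⟩ := exists_prime_orderOf_dvd_card' (G := G ⧸ N) t (by rwa [← Subgroup.index_eq_card])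
    obtain ⟨y, rfl⟩ := QuotientGroup.mk_surjective x
    exact lift_pelt y (by rw [hx, pow_one])
  have hbdd : BddAbove A := by
    refine ⟨N.index, ?_⟩
    rintro a ⟨c, -, hc⟩
    have h1 : t ^ a ∣ N.index := by
      rw [← hc, Subgroup.index_eq_card]
      exact orderOf_dvd_natCard _
    have h2 := Nat.le_of_dvd (Nat.pos_of_ne_zero Subgroup.index_ne_zero_of_finite) h1
    exact (Nat.lt_pow_self ht.out.one_lt).le.trans h2
  set a := sSup A with ha
  have haA : a ∈ A := Nat.sSup_mem ⟨1, h1A⟩ hbdd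
  have ha1 : 1 ≤ a := le_csSup hbdd h1A
  obtain ⟨c, ⟨e, he⟩, hco⟩ := haA
  have hcN : c ∉ N := by
    intro hc
    have h1 : (c : G ⧸ N) = 1 := (QuotientGroup.eq_one_iff _).2 hc
    rw [h1, orderOf_one] at hco
    have := Nat.one_lt_pow (n := a) (by omega) ht.out.one_lt
    omega
  have hzc : IsPGroup t (zpowers c) := by
    rintro ⟨y, k, rfl⟩
    refine ⟨e, Subtype.ext ?_⟩
    show (c ^ k) ^ t ^ e = 1
    rw [← zpow_natCast, ← zpow_mul, mul_comm, zpow_mul, zpow_natCast, he, one_zpow]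
  obtain ⟨T, hT⟩ := hzc.exists_le_sylow
  have hcT : c ∈ (T : Subgroup G) := hT (mem_zpowers c)
  -- `T ⊓ N ≠ 1`
  have hTN : N.subgroupOf (T : Subgroup G) ≠ ⊥ := by
    obtain ⟨x, hx⟩ := exists_prime_orderOf_dvd_card' (G := N) t ht2
    have hx1 : orderOf (x : G) = t := by rw [Subgroup.orderOf_coe, hx]
    have hzx : IsPGroup t (zpowers (x : G)) := by
      rintro ⟨y, k, rfl⟩
      refine ⟨1, Subtype.ext ?_⟩
      show ((x : G) ^ k) ^ t ^ 1 = 1
      rw [← zpow_natCast, ← zpow_mul, mul_comm, zpow_mul, zpow_natCast, pow_one, ← hx1,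
        pow_orderOf_eq_one, one_zpow]
    obtain ⟨T', hT'⟩ := hzx.exists_le_sylow
    obtain ⟨g, hg⟩ := MulAction.exists_smul_eq G T' T
    have hmem1 : MulAut.conj g • (x : G) ∈ MulAut.conj g • (T' : Subgroup G) :=
      Subgroup.smul_mem_pointwise_smul _ _ _ (hT' (mem_zpowers _))
    rw [← Sylow.coe_subgroup_smul, hg] at hmem1
    have hmem2 : g * (x : G) * g⁻¹ ∈ (T : Subgroup G) := hmem1
    have hmem3 : g * (x : G) * g⁻¹ ∈ N := hN.conj_mem _ x.2 g
    intro hb
    have hmem4 : (⟨_, hmem2⟩ : (T : Subgroup G)) ∈ N.subgroupOf (T : Subgroup G) := hmem3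
    rw [hb, mem_bot] at hmem4
    have hmem5 : g * (x : G) * g⁻¹ = 1 := congrArg Subtype.val hmem4
    have hx2 : (x : G) = 1 := by
      have : (x : G) = g⁻¹ * (g * (x : G) * g⁻¹) * g := by group
      rw [this, hmem5]; group
    rw [hx2, orderOf_one] at hx1
    exact ht.out.one_lt.ne hx1
  haveI : Group.IsNilpotent (T : Subgroup G) := T.isPGroup'.isNilpotent
  haveI : (N.subgroupOf (T : Subgroup G)).Normal := inferInstance
  have hTz := Cfsg.Agent.Lib.Core.normal_inf_center_ne_bot (N.subgroupOf (T : Subgroup G)) hTN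
  obtain ⟨w, hw⟩ := Subgroup.ne_bot_iff_exists_ne_one.mp hTz
  obtain ⟨hzN, hzc'⟩ := w.2
  obtain ⟨z, hzdef⟩ : ∃ z : (T : Subgroup G), z = w := ⟨_, rfl⟩
  rw [← hzdef] at hzN hzc'
  have hz1 : z ≠ 1 := fun h => hw (Subtype.ext (hzdef ▸ h))
  -- the subgroup `V`
  set V : Subgroup G := (T : Subgroup G) ⊓ centralizer {c} with hV
  have hcV : c ∈ V := ⟨hcT, show c ∈ centralizer {c} by rw [mem_centralizer_singleton_iff]⟩
  have hzV : (z : G) ∈ V := by
    refine ⟨z.2, ?_⟩
    show (z : G) ∈ centralizer {c}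
    rw [mem_centralizer_singleton_iff]
    exact congrArg Subtype.val ((mem_center_iff.mp hzc') ⟨c, hcT⟩).symm
  have hVp : IsPGroup t V := T.isPGroup'.to_le inf_le_left
  obtain ⟨b, hb⟩ := IsPGroup.iff_card.mp hVp
  have hcVo : orderOf c ∣ t ^ b := by
    rw [← hb, ← Subgroup.orderOf_mk c hcV]
    exact orderOf_dvd_natCard _
  have hco2 : t ^ a ∣ orderOf c := by
    rw [← hco]
    exact orderOf_map_dvd (QuotientGroup.mk' N) c
  have hab : a + 1 ≤ b := by
    have h1 : a ≤ b := (Nat.pow_dvd_pow_iff_le_right ht.out.one_lt).mp (hco2.trans hcVo)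
    by_contra hlt
    have hab : a = b := by omega
    subst hab
    have h2 : orderOf c = t ^ a := Nat.dvd_antisymm hcVo hco2
    have h3 : zpowers c = V := by
      refine Subgroup.eq_of_le_of_card_ge (zpowers_le.mpr hcV) ?_
      rw [hb, Nat.card_zpowers, h2]
    have h4 : (z : G) ∈ zpowers c := by rw [h3]; exact hzV
    obtain ⟨k, hk⟩ := mem_zpowers_iff.mp h4
    have h5 : (c : G ⧸ N) ^ k = 1 := by
      rw [← QuotientGroup.mk_zpow, hk]
      exact (QuotientGroup.eq_one_iff _).2 hzN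
    have h6 := orderOf_dvd_iff_zpow_eq_one.mpr h5
    rw [hco, ← h2] at h6
    have h7 := orderOf_dvd_iff_zpow_eq_one.mp h6
    rw [hk] at h7
    exact hz1 (Subtype.ext h7)
  have hdvd1 : t ^ (a + 1) ∣ Nat.card (centralizer {c}) := by
    have h1 : t ^ (a + 1) ∣ Nat.card V := by
      rw [hb]; exact pow_dvd_pow _ hab
    exact h1.trans (Subgroup.card_dvd_of_le inf_le_right)
  rw [h.card_centralizer hcN] at hdvd1
  obtain ⟨B, hBc, hBab⟩ := exists_abelian_sup (c : G ⧸ N) hco hdvd1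
  have hBcyc := hcyc B (IsPGroup.of_card hBc) hBab
  obtain ⟨b', hb'⟩ := IsCyclic.exists_ofOrder_eq_natCard (α := B)
  rw [hBc, ← Subgroup.orderOf_coe] at hb'
  obtain ⟨y, hy⟩ := QuotientGroup.mk_surjective (b' : G ⧸ N)
  rw [← hy] at hb'
  have hmem : a + 1 ∈ A := lift_pelt y hb'
  have := le_csSup hbdd hmem
  omega

open Cfsg.Agent.Lib.Transfer in
theorem Cam.false_of_pResidual [Finite G] {N : Subgroup G} [hN : N.Normal] (h : Cam N) {p t : ℕ}
    [hp : Fact p.Prime] [ht : Fact t.Prime] (hpt : p ≠ t) (hne : pResidual p N ≠ ⊤)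
    (ht1 : t ∣ N.index) (ht2 : t ∣ Nat.card N) : False := by
  haveI hKn := residual_map_normal (p := p) N
  set K := (pResidual p N).map N.subtype with hK
  have hKN : K ≤ N := Subgroup.map_subtype_le _
  have hKne : K ≠ N := by
    intro he
    apply hne
    rw [eq_top_iff]
    intro x _
    have hx : (x : G) ∈ K := by rw [he]; exact x.2
    obtain ⟨y, hy, hye⟩ := hx
    have : y = x := Subtype.ext hye
    rwa [← this]
  have hres : ∀ n ∈ N, ∃ a : ℕ, n ^ (p ^ a) ∈ K := by
    intro n hn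
    obtain ⟨k, hk⟩ := isPGroup_quotient_pResidual (p := p) (G := N) (QuotientGroup.mk ⟨n, hn⟩)
    refine ⟨k, ?_⟩
    rw [← QuotientGroup.mk_pow, QuotientGroup.eq_one_iff] at hk
    exact ⟨_, hk, rfl⟩
  exact h.false_of_residual hKN hKne hpt hres ht1 ht2

open Cfsg.Agent.Lib.Transfer in
theorem residual_ne_top_of_nilpotent {X : Type*} [Group X] [Finite X] [hX : Group.IsNilpotent X] {p : ℕ}
    [hp : Fact p.Prime] (hd : p ∣ Nat.card X) : pResidual p X ≠ ⊤ := by
  classical
  intro htop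
  have hn : ∀ {q : ℕ} [Fact q.Prime] (P : Sylow q X), (P : Subgroup X).Normal := by
    intro q _ P
    have hh : Group.IsNilpotent X ↔ ∀ (p : ℕ) (_hp : Fact p.Prime) (P : Sylow p X), (↑P : Subgroup X).Normal :=
      Group.isNilpotent_of_finite_tfae.out 0 3
    exact hh.mp hX q inferInstance P
  have hmem : p ∈ (Nat.card X).primeFactors :=
    Nat.mem_primeFactors.mpr ⟨hp.out, hd, Nat.card_pos.ne'⟩
  obtain ⟨P⟩ : Nonempty (Sylow p X) := inferInstance
  have hcard : Nat.card P = p ^ (Nat.card X).factorization p := P.card_eq_multiplicity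
  haveI : Nontrivial P := by
    rw [← Finite.one_lt_card_iff_nontrivial, hcard]
    exact Nat.one_lt_pow (Nat.one_le_iff_ne_zero.mp
      ((hp.out.dvd_iff_one_le_factorization Nat.card_pos.ne').mp hd)) hp.out.one_lt
  obtain ⟨y, hy⟩ := exists_ne (1 : P)
  let e := Sylow.directProductOfNormal (G := X) hn
  let q : (Nat.card X).primeFactors := ⟨p, hmem⟩
  haveI : Fact (q : ℕ).Prime := hp
  let P₀ : Sylow (q : ℕ) X := P
  let f : X →* P₀ :=
    ((Pi.evalMonoidHom _ P₀).comp (Pi.evalMonoidHom (fun r : (Nat.card X).primeFactors => (P : Sylow (r : ℕ) X) → ↥P) q)).comp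
      e.symm.toMonoidHom
  have hle : pResidual p X ≤ f.ker := pResidual_le_ker P.isPGroup' f
  rw [htop] at hle
  let d : (r : (Nat.card X).primeFactors) → (P : Sylow (r : ℕ) X) → ↥P :=
    Pi.mulSingle q (Pi.mulSingle P₀ y)
  have h1 : f (e d) = y := by
    show (e.symm (e d)) q P₀ = y
    rw [MulEquiv.symm_apply_apply]
    show (Pi.mulSingle q (Pi.mulSingle P₀ y) : (r : (Nat.card X).primeFactors) → (P : Sylow (r : ℕ) X) → ↥P) q P₀ = y
    rw [Pi.mulSingle_eq_same, Pi.mulSingle_eq_same]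
  have h2 : f (e d) = 1 := hle (mem_top _)
  exact hy (h1.symm.trans h2)

open Cfsg.Agent.Lib.FrobThm in
theorem Cam.nilpotent_of_not_dvd [Finite G] {N : Subgroup G} [hN : N.Normal] (h : Cam N) {r : ℕ}
    [hr : Fact r.Prime] (hri : r ∣ N.index) (hrN : ¬ r ∣ Nat.card N) : Group.IsNilpotent N := by
  classical
  obtain ⟨x, hx⟩ := exists_prime_orderOf_dvd_card' (G := G ⧸ N) r (by rwa [← Subgroup.index_eq_card])
  obtain ⟨y, rfl⟩ := QuotientGroup.mk_surjective x
  obtain ⟨w, ⟨e, he⟩, hwo⟩ := lift_pelt (t := r) (a := 1) (N := N) y (by rw [hx, pow_one])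
  rw [pow_one] at hwo
  have hwN : w ∉ N := by
    intro hc
    have h1 : (w : G ⧸ N) = 1 := (QuotientGroup.eq_one_iff _).2 hc
    rw [h1, orderOf_one] at hwo
    exact hr.out.one_lt.ne hwo
  have hcopr : Nat.Coprime (Nat.card N) r := ((Nat.Prime.coprime_iff_not_dvd hr.out).2 hrN).symm
  have hNr : ∀ (n : N) (k : ℕ), (n : G) ^ r ^ k = 1 → n = 1 := by
    intro n k hk
    have h1 : orderOf n ∣ r ^ k := by
      rw [← Subgroup.orderOf_coe]
      exact orderOf_dvd_of_pow_eq_one hk
    have h2 : orderOf n ∣ Nat.card N := orderOf_dvd_natCard n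
    have h3 := Nat.eq_one_of_dvd_coprimes (Nat.Coprime.pow_right k hcopr) h2 h1
    exact orderOf_eq_one_iff.mp h3
  have hwr : w ^ r = 1 := by
    have hmem : w ^ r ∈ N := by
      rw [← QuotientGroup.eq_one_iff, QuotientGroup.mk_pow, ← hwo, pow_orderOf_eq_one]
    have := hNr ⟨_, hmem⟩ e (by show (w ^ r) ^ r ^ e = 1; rw [← pow_mul, mul_comm, pow_mul, he, one_pow])
    exact congrArg Subtype.val this
  let α : N ≃* N := MulAut.conjNormal w
  have hα : ∀ n : N, ((α n : N) : G) = w * n * w⁻¹ := fun n => MulAut.conjNormal_apply w n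
  refine fpf_nilpotent hr.out α ?_ ?_
  · intro n hn
    have h1 : w * (n : G) * w⁻¹ = n := by rw [← hα, hn]
    have h2 : Commute w (n : G) := mul_inv_eq_iff_eq_mul.mp h1
    have h3 := h.pow_eq_one hwN n.2 h2 hwr
    exact hNr n 1 (by rw [pow_one]; exact h3)
  · intro n
    have hk : ∀ k : ℕ, ((α^[k] n : N) : G) = w ^ k * n * (w ^ k)⁻¹ := by
      intro k
      induction k with
      | zero => simp
      | succ k ih =>
        rw [Function.iterate_succ_apply', hα, ih, pow_succ']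
        group
    apply Subtype.ext
    rw [hk, hwr]
    simp

theorem exists_other_prime {n t : ℕ} (hn : n ≠ 0) (ht : t.Prime) (hd : t ∣ n) (hnp : ¬ IsPrimePow n) :
    ∃ r : ℕ, r.Prime ∧ r ≠ t ∧ r ∣ n := by
  by_contra hcon
  push Not at hcon
  have h1 : n = t ^ n.primeFactorsList.length :=
    Nat.eq_prime_pow_of_unique_prime_dvd hn (fun {d} hp hdn => by
      by_contra hne
      exact hcon d hp hne hdn)
  apply hnp
  rw [h1]
  have hL : n.primeFactorsList.length ≠ 0 := by
    intro h0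
    rw [h0, pow_zero] at h1
    rw [h1] at hd
    exact ht.one_lt.ne' (Nat.dvd_one.mp hd)
  exact ht.prime.isPrimePow.pow hL

open Cfsg.Agent.Lib.Transfer Cfsg.Agent.Lib.CycSylow in
/-- The trichotomy for Camina pairs. -/
theorem Cam.trichotomy [Finite G] {N : Subgroup G} [hN : N.Normal] (h : Cam N) :
    (∀ x ∈ N, x ≠ 1 → centralizer ({x} : Set G) ≤ N) ∨ IsPrimePow (Nat.card N) ∨ IsPrimePow N.index := by
  classical
  by_contra hcon
  push Not at hcon
  obtain ⟨⟨x, hxN, hx1, hcx⟩, hNp, hIp⟩ := hcon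
  obtain ⟨y, hyc, hyN⟩ := SetLike.not_le_iff_exists.mp hcx
  have hy1 : (y : G ⧸ N) ≠ 1 := fun h1 => hyN ((QuotientGroup.eq_one_iff _).1 h1)
  have hyo : orderOf (y : G ⧸ N) ≠ 1 := fun h1 => hy1 (orderOf_eq_one_iff.mp h1)
  obtain ⟨t, htp, hto⟩ := Nat.exists_prime_and_dvd hyo
  haveI ht : Fact t.Prime := ⟨htp⟩
  have hNcard : Nat.card N ≠ 0 := Nat.card_pos.ne'
  have hIcard : N.index ≠ 0 := Subgroup.index_ne_zero_of_finite
  have ht1 : t ∣ N.index := by
    rw [Subgroup.index_eq_card]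
    exact hto.trans (orderOf_dvd_natCard _)
  have ho : orderOf y ≠ 0 := (orderOf_pos y).ne'
  have hgN : y ^ ordCompl[t] (orderOf y) ∉ N := by
    intro hc
    have h1 : (y : G ⧸ N) ^ ordCompl[t] (orderOf y) = 1 := by
      rw [← QuotientGroup.mk_pow]
      exact (QuotientGroup.eq_one_iff _).2 hc
    have h2 := hto.trans (orderOf_dvd_of_pow_eq_one h1)
    exact Nat.not_dvd_ordCompl htp ho h2
  have hgc : Commute (y ^ ordCompl[t] (orderOf y)) x :=
    Commute.pow_left (mem_centralizer_singleton_iff.mp hyc) _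
  have hgt : (y ^ ordCompl[t] (orderOf y)) ^ t ^ (orderOf y).factorization t = 1 := by
    rw [← pow_mul, mul_comm, Nat.ordProj_mul_ordCompl_eq_self, pow_orderOf_eq_one]
  have hxt := h.pow_eq_one hgN hxN hgc hgt
  have ht2 : t ∣ Nat.card N := by
    have h1 : orderOf x ∣ t ^ (orderOf y).factorization t := orderOf_dvd_of_pow_eq_one hxt
    obtain ⟨k, -, hk⟩ := (Nat.dvd_prime_pow htp).mp h1
    have hk0 : k ≠ 0 := by
      rintro rfl
      rw [pow_zero] at hk
      exact hx1 (orderOf_eq_one_iff.mp hk)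
    have h2 : orderOf x ∣ Nat.card N := by
      rw [← Subgroup.orderOf_mk x hxN]
      exact orderOf_dvd_natCard _
    exact (dvd_pow_self t hk0).trans (hk ▸ h2)
  obtain ⟨r, hrp, hrt, hri⟩ := exists_other_prime hIcard htp ht1 hIp
  haveI hr : Fact r.Prime := ⟨hrp⟩
  by_cases hrN : r ∣ Nat.card N
  · have hcomp := h.hasNormalPComplement hri
    have hcop := card_pResidual_coprime hcomp
    refine h.false_of_pResidual hrt ?_ ht1 ht2
    intro htop
    rw [htop, Subgroup.card_top] at hcop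
    exact hrp.one_lt.ne' (hcop.symm.eq_one_of_dvd hrN)
  · haveI hnil := h.nilpotent_of_not_dvd hri hrN
    obtain ⟨p, hpp, hpt, hpN⟩ := exists_other_prime hNcard htp ht2 hNp
    haveI hp : Fact p.Prime := ⟨hpp⟩
    exact h.false_of_pResidual hpt (residual_ne_top_of_nilpotent hpN) ht1 ht2

end Cfsg.Agent.Lib.CaminaPair
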